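/-
Project AB (S2506, coordinator helper73), package [EXIST]:
an abelian subgroup of `Alt(Ω)` of order `fmax (card Ω)`.
-/
import Cfsg.Agent.Lib.Helper73.AB.Defs
import Cfsg.Agent.S2504

set_option autoImplicit false

namespace Cfsg.Agent.Lib.Helper22.AB

open Equiv Cfsg.Agent.Lib.Helper73.AB Cfsg.Agent.S2504

theorem hasAbE_bot (n : ℕ) : HasAbE n 1 := by
  refine ⟨⊥, ?_, ?_, ?_⟩
  · refine isMulCommutative_iff.mpr ?_
    intro x y
    exact Subsingleton.elim _ _
  · simp
  · intro σ hσ
    rw [Subgroup.mem_bot] at hσ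
    rw [hσ]; simp

theorem hasAbE_five : HasAbE 5 5 := by
  have h := hasAbE_add 0 1 (Multiplicative (ZMod 5)) (by decide) hasAbE_zero
  have h5 : Fintype.card (Multiplicative (ZMod 5)) = 5 := by decide
  rw [h5] at h
  simpa using h

theorem hasAbE_three' : HasAbE 3 3 := by simpa using hasAbE_three 0 1 hasAbE_zero

theorem hasAbE_four' : HasAbE 4 4 := by simpa using hasAbE_four 0 1 hasAbE_zero

theorem hasAbE_fmax : ∀ n : ℕ, HasAbE n (fmax n)
  | 0 => hasAbE_zero
  | 1 => hasAbE_bot 1
  | 2 => hasAbE_bot 2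
  | 3 => by
      have e : fmax 3 = 3 := rfl
      rw [e]; exact hasAbE_three'
  | 4 => by
      have e : fmax 4 = 4 := rfl
      rw [e]; exact hasAbE_four'
  | 5 => hasAbE_five
  | 6 => by
      have e : fmax 6 = 9 := rfl
      rw [e]
      simpa using hasAbE_three 3 3 hasAbE_three'
  | 7 => by
      have e : fmax 7 = 12 := rfl
      rw [e]
      simpa using hasAbE_three 4 4 hasAbE_four'
  | 8 => by
      have e : fmax 8 = 16 := rfl
      rw [e]
      simpa using hasAbE_four 4 4 hasAbE_four'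
  | (n + 9) => by
      have h := hasAbE_three (n + 6) (fmax (n + 6)) (hasAbE_fmax (n + 6))
      have e : fmax (n + 9) = fmax (n + 6) * 3 := by
        rw [fmax]; ring
      rw [e]
      exact h

theorem lemAbExist : LemAbExist := by
  intro Ω _ _
  obtain ⟨A, hA, hcard, heven⟩ := hasAbE_fmax (Fintype.card Ω)
  let e : Fin (Fintype.card Ω) ≃ Ω := (Fintype.equivFin Ω).symm
  let F : Perm (Fin (Fintype.card Ω)) →* Perm Ω := (e.permCongrHom).toMonoidHom
  have hF : Function.Injective F := e.permCongrHom.injective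
  refine ⟨A.map F, ?_, ?_, ?_⟩
  · rintro σ ⟨u, hu, rfl⟩
    rw [Perm.mem_alternatingGroup]
    show Perm.sign (e.permCongr u) = 1
    rw [Perm.sign_permCongr, heven u hu]
  · rintro x ⟨u, hu, rfl⟩ y ⟨v, hv, rfl⟩
    rw [← map_mul, ← map_mul]
    have h := mul_comm' (⟨u, hu⟩ : A) ⟨v, hv⟩
    have h2 : u * v = v * u := congrArg Subtype.val h
    rw [h2]
  · rw [Subgroup.card_map_of_injective hF, hcard]

end Cfsg.Agent.Lib.Helper22.AB
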