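/-
Project AB (S2506, coordinator helper73), package [FINAL]: the statement of S2506 from the
packages EXIST, BOUND, CONJ, PAR.
-/
import Cfsg.Agent.Lib.Helper73.AB.Defs
import Cfsg.Agent.Lib.Helper17.Simple

set_option autoImplicit false

namespace Cfsg.Agent.Lib.Helper22.AB

open Equiv Cfsg.Agent.Lib.Helper73.AB
open scoped Pointwise

/-- the image in `Perm (Fin n)` of an abelian subgroup of `A_n` of largest order. -/
theorem isMaxAb_map {n : ℕ} (A : Subgroup (alternatingGroup (Fin n))) (hA : IsMulCommutative A)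
    (hmax : ∀ C : Subgroup (alternatingGroup (Fin n)), IsMulCommutative C →
      Nat.card C ≤ Nat.card A) :
    IsMaxAb (A.map (alternatingGroup (Fin n)).subtype) := by
  refine ⟨?_, ?_, ?_⟩
  · rintro σ ⟨u, hu, rfl⟩
    exact u.2
  · rintro x ⟨u, hu, rfl⟩ y ⟨v, hv, rfl⟩
    have h := mul_comm' (⟨u, hu⟩ : A) ⟨v, hv⟩
    have h2 : u * v = v * u := congrArg Subtype.val h
    rw [← map_mul, ← map_mul, h2]
  · intro C hCle hCc
    have h1 : Nat.card (C.subgroupOf (alternatingGroup (Fin n))) = Nat.card C :=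
      Nat.card_congr (Subgroup.subgroupOfEquivOfLe hCle).toEquiv
    have h2 : IsMulCommutative (C.subgroupOf (alternatingGroup (Fin n))) := by
      refine isMulCommutative_iff.mpr ?_
      rintro ⟨x, hx⟩ ⟨y, hy⟩
      apply Subtype.ext
      apply Subtype.ext
      exact hCc _ hx _ hy
    have h3 := hmax _ h2
    rw [h1] at h3
    rw [Subgroup.card_map_of_injective (Subgroup.subtype_injective _)]
    exact h3

theorem conj_eq_of_map {n : ℕ} (A B : Subgroup (alternatingGroup (Fin n)))
    (g : alternatingGroup (Fin n))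
    (h : B.map (alternatingGroup (Fin n)).subtype =
      (A.map (alternatingGroup (Fin n)).subtype).map
        (MulAut.conj (g : Perm (Fin n))).toMonoidHom) :
    B = MulAut.conj g • A := by
  ext x
  rw [Subgroup.mem_pointwise_smul_iff_inv_smul_mem]
  have e : (MulAut.conj g)⁻¹ • x = g⁻¹ * x * g := by
    rw [MulAut.smul_def, MulAut.conj_inv_apply]
  rw [e]
  have hx : x ∈ B ↔ (x : Perm (Fin n)) ∈ B.map (alternatingGroup (Fin n)).subtype := by
    constructor
    · intro hx; exact ⟨x, hx, rfl⟩
    · rintro ⟨y, hy, hyx⟩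
      have h0 : y = x := Subtype.ext hyx
      rw [← h0]; exact hy
  rw [hx, h]
  constructor
  · rintro ⟨a, ⟨u, hu, rfl⟩, hax⟩
    have hax' : (g : Perm (Fin n)) * (u : Perm (Fin n)) * (g : Perm (Fin n))⁻¹ =
        (x : Perm (Fin n)) := hax
    have h0 : g⁻¹ * x * g = u := by
      apply Subtype.ext
      show (g : Perm (Fin n))⁻¹ * (x : Perm (Fin n)) * (g : Perm (Fin n)) = (u : Perm (Fin n))
      rw [← hax']; group
    rw [h0]; exact hu
  · intro hmem
    refine ⟨_, ⟨g⁻¹ * x * g, hmem, rfl⟩, ?_⟩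
    show (g : Perm (Fin n)) * ((g : Perm (Fin n))⁻¹ * (x : Perm (Fin n)) * (g : Perm (Fin n))) *
      (g : Perm (Fin n))⁻¹ = (x : Perm (Fin n))
    group

theorem s2506_of (hE : LemAbExist) (hB : LemAbBound) (hC : LemAbConj) (hP : LemAbPar) :
    S2506Stmt := by
  intro n A B hA hBc hmaxA hmaxB
  have hA' := isMaxAb_map A hA hmaxA
  have hB' := isMaxAb_map B hBc hmaxB
  by_cases hn2 : n ≤ 2
  · have hsub : Subsingleton (alternatingGroup (Fin n)) := by
      rw [← Fintype.card_le_one_iff_subsingleton]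
      interval_cases n <;> decide
    refine ⟨1, ?_⟩
    ext x
    have hx : x = 1 := Subsingleton.elim _ _
    rw [hx]
    exact ⟨fun _ => Subgroup.one_mem _, fun _ => Subgroup.one_mem _⟩
  · by_cases hn5 : n = 5
    · subst hn5
      haveI : Fact (Nat.Prime 5) := ⟨by norm_num⟩
      have hcardG : Nat.card (alternatingGroup (Fin 5)) = 5 ^ 1 * 12 := by
        rw [Nat.card_eq_fintype_card]
        have h2 := two_mul_card_alternatingGroup (α := Fin 5)
        rw [Fintype.card_perm, Fintype.card_fin] at h2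
        have h3 : Nat.factorial 5 = 120 := by decide
        omega
      have e5 : fmax (Fintype.card (Fin 5)) = 5 := by rw [Fintype.card_fin]; rfl
      have hcard5 : ∀ D : Subgroup (alternatingGroup (Fin 5)),
          IsMaxAb (D.map (alternatingGroup (Fin 5)).subtype) → Nat.card D = 5 := by
        intro D hD
        obtain ⟨C, hCle, hCc, hCcard⟩ := hE (Fin 5)
        have h1 := hD.2.2 C hCle hCc
        have h2 := hB (Fin 5) _ hD.1 hD.2.1
        rw [Subgroup.card_map_of_injective (Subgroup.subtype_injective _)] at h1 h2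
        rw [hCcard] at h1
        rw [e5] at h1 h2
        omega
      have key : ∀ D : Subgroup (alternatingGroup (Fin 5)), Nat.card D = 5 →
          ∃ P : Sylow 5 (alternatingGroup (Fin 5)),
            (P : Subgroup (alternatingGroup (Fin 5))) = D := by
        intro D hD
        have hDp : IsPGroup 5 D := IsPGroup.of_card (n := 1) (by rw [hD]; norm_num)
        obtain ⟨P, hP⟩ := hDp.exists_le_sylow
        refine ⟨P, ?_⟩
        have hPc : Nat.card (P : Subgroup (alternatingGroup (Fin 5))) = 5 ^ 1 :=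
          Cfsg.Agent.Lib.Helper17.card_sylow_eq_of_card_eq 5 1 12 hcardG (by norm_num) P
        symm
        apply Subgroup.eq_of_le_of_card_ge hP
        rw [hPc, hD]; norm_num
      obtain ⟨P, hPA⟩ := key A (hcard5 A hA')
      obtain ⟨Q, hQB⟩ := key B (hcard5 B hB')
      obtain ⟨g, hg⟩ := MulAction.exists_smul_eq (alternatingGroup (Fin 5)) P Q
      refine ⟨g, ?_⟩
      rw [← hQB, ← hPA, ← hg]
      rfl
    · have hn3 : 3 ≤ Fintype.card (Fin n) := by rw [Fintype.card_fin]; omega
      have hn5' : Fintype.card (Fin n) ≠ 5 := by rw [Fintype.card_fin]; exact hn5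
      obtain ⟨σ, hσ⟩ := hC (Fin n) _ _ hA' hB'
      obtain ⟨σ', hσ'sign, hσ'⟩ : ∃ σ' : Perm (Fin n), Perm.sign σ' = 1 ∧
          B.map (alternatingGroup (Fin n)).subtype =
            (A.map (alternatingGroup (Fin n)).subtype).map (MulAut.conj σ').toMonoidHom := by
        rcases Int.units_eq_one_or (Perm.sign σ) with h1 | h1
        · exact ⟨σ, h1, hσ⟩
        · obtain ⟨τ, hτ, hτA⟩ := hP (Fin n) _ hA' hn3 hn5'
          refine ⟨σ * τ, by rw [map_mul, h1, hτ]; simp, ?_⟩
          rw [hσ]
          conv_lhs => rw [← hτA]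
          have ecomp : (MulAut.conj σ).toMonoidHom.comp (MulAut.conj τ).toMonoidHom =
              (MulAut.conj (σ * τ)).toMonoidHom := by
            refine MonoidHom.ext fun x => ?_
            show σ * (τ * x * τ⁻¹) * σ⁻¹ = σ * τ * x * (σ * τ)⁻¹
            group
          rw [Subgroup.map_map, ecomp]
      exact ⟨⟨σ', Perm.mem_alternatingGroup.mpr hσ'sign⟩, conj_eq_of_map A B _ hσ'⟩

end Cfsg.Agent.Lib.Helper22.AB
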